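import Cfsg.Agent.H31.RC.TwoM
import Cfsg.Agent.H338.RC.Mat2
import Cfsg.Agent.H138.RC.Base

/-!
# The orthogonal space of `2 × 2` matrices over an extension field
-/

set_option autoImplicit false
open Cfsg

namespace Cfsg.Agent.H31.RC

open QuadraticMap MulAction
open Cfsg.Agent.LieClassical.OrthCore Cfsg.Agent.LieClassical.OrthTrans
open Cfsg.Agent.LieClassical.OrthSimple Cfsg.Agent.ClassicalGeometry.OrthSemi
open Cfsg.Agent.ClassicalGeometry.OrthAut1 Cfsg.Agent.H106.RC Cfsg.Agent.H93.RC Cfsg.Agent.H138.RC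
open Matrix.ProjGenLinGroup (mk mk_eq_one mk_eq_mk_iff)
open scoped commutatorElement MatrixGroups

section phi

variable {F K V : Type} [Field F] [Field K] [Algebra F K] [AddCommGroup V] [Module F V] [Module K V]
  [IsScalarTower F K V]

/-- `v ↦ P v R⁻¹` -/
noncomputable def Phi (F : Type) [Field F] [Algebra F K] [Module F V] [IsScalarTower F K V]
    (θ : V ≃ₗ[K] Matrix (Fin 2) (Fin 2) K) : GL (Fin 2) K × GL (Fin 2) K →* (V ≃ₗ[F] V) where
  toFun p := ((θ.trans (Cfsg.Agent.LieClassical.OrthFourPlus.conjLin p)).trans θ.symm).restrictScalars F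
  map_one' := by
    ext v
    change θ.symm (Cfsg.Agent.LieClassical.OrthFourPlus.conjLin 1 (θ v)) = v
    rw [map_one]
    exact θ.symm_apply_apply v
  map_mul' p q := by
    ext v
    change θ.symm (Cfsg.Agent.LieClassical.OrthFourPlus.conjLin (p * q) (θ v)) =
      θ.symm (Cfsg.Agent.LieClassical.OrthFourPlus.conjLin p (θ (θ.symm
        (Cfsg.Agent.LieClassical.OrthFourPlus.conjLin q (θ v)))))
    rw [map_mul, LinearEquiv.apply_symm_apply]
    rfl

theorem Phi_apply (θ : V ≃ₗ[K] Matrix (Fin 2) (Fin 2) K) (p : GL (Fin 2) K × GL (Fin 2) K) (v : V) :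
    Phi F θ p v = θ.symm (p.1.1 * θ v * (p.2⁻¹).1) := rfl

theorem th_Phi (θ : V ≃ₗ[K] Matrix (Fin 2) (Fin 2) K) (p : GL (Fin 2) K × GL (Fin 2) K) (v : V) :
    θ (Phi F θ p v) = p.1.1 * θ v * (p.2⁻¹).1 := by
  rw [Phi_apply, LinearEquiv.apply_symm_apply]

/-- left multiplication -/
noncomputable def muL (F : Type) [Field F] [Algebra F K] [Module F V] [IsScalarTower F K V]
    (θ : V ≃ₗ[K] Matrix (Fin 2) (Fin 2) K) : SL(2, K) →* (V ≃ₗ[F] V) :=
  (Phi F θ).comp ((MonoidHom.inl _ _).comp Matrix.SpecialLinearGroup.toGL)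

/-- right multiplication -/
noncomputable def muR (F : Type) [Field F] [Algebra F K] [Module F V] [IsScalarTower F K V]
    (θ : V ≃ₗ[K] Matrix (Fin 2) (Fin 2) K) : SL(2, K) →* (V ≃ₗ[F] V) :=
  (Phi F θ).comp ((MonoidHom.inr _ _).comp Matrix.SpecialLinearGroup.toGL)

variable (θ : V ≃ₗ[K] Matrix (Fin 2) (Fin 2) K)

theorem th_muL (s : SL(2, K)) (v : V) : θ (muL F θ s v) = s.1 * θ v := by
  change θ (Phi F θ (Matrix.SpecialLinearGroup.toGL s, 1) v) = _
  rw [th_Phi]
  simp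

theorem th_muR (s : SL(2, K)) (v : V) : θ (muR F θ s v) = θ v * (s⁻¹).1 := by
  change θ (Phi F θ (1, Matrix.SpecialLinearGroup.toGL s) v) = _
  rw [th_Phi, ← map_inv]
  change (1 : Matrix (Fin 2) (Fin 2) K) * θ v * _ = _
  rw [one_mul]
  rfl

theorem muLR (s t : SL(2, K)) : muL F θ s * muR F θ t = muR F θ t * muL F θ s := by
  ext v
  apply θ.injective
  change θ (muL F θ s (muR F θ t v)) = θ (muR F θ t (muL F θ s v))
  rw [th_muL, th_muR, th_muR, th_muL, mul_assoc]

theorem muL_inj : Function.Injective (muL F θ) := by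
  rw [injective_iff_map_eq_one]
  intro s hs
  have h1 := th_muL (F := F) θ s (θ.symm 1)
  rw [hs] at h1
  change θ (θ.symm 1) = s.1 * θ (θ.symm 1) at h1
  rw [LinearEquiv.apply_symm_apply, mul_one] at h1
  exact Subtype.ext h1.symm

theorem muR_inj : Function.Injective (muR F θ) := by
  rw [injective_iff_map_eq_one]
  intro s hs
  have h1 := th_muR (F := F) θ s (θ.symm 1)
  rw [hs] at h1
  change θ (θ.symm 1) = θ (θ.symm 1) * (s⁻¹).1 at h1
  rw [LinearEquiv.apply_symm_apply, one_mul] at h1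
  have h2 : s⁻¹ = 1 := Subtype.ext h1.symm
  exact inv_eq_one.1 h2

/-- central elements are `±1` -/
theorem center_pm {s : SL(2, K)} (hs : s ∈ Subgroup.center SL(2, K)) : s.1 = 1 ∨ s.1 = -1 := by
  obtain ⟨e, he, hes⟩ := Matrix.SpecialLinearGroup.mem_center_iff.1 hs
  rw [Fintype.card_fin, pow_two, mul_self_eq_one_iff] at he
  rcases he with rfl | rfl
  · left
    rw [← hes, map_one]
  · right
    rw [← hes, map_neg, map_one]

theorem muL_center {s : SL(2, K)} (hs : s ∈ Subgroup.center SL(2, K)) (g : V ≃ₗ[F] V) :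
    muL F θ s * g = g * muL F θ s := by
  rcases center_pm hs with h | h
  · have h1 : ∀ v, muL F θ s v = v := by
      intro v
      apply θ.injective
      rw [th_muL, h, one_mul]
    ext v
    change muL F θ s (g v) = g (muL F θ s v)
    rw [h1, h1]
  · have h1 : ∀ v, muL F θ s v = -v := by
      intro v
      apply θ.injective
      rw [th_muL, h, map_neg, neg_mul, one_mul]
    ext v
    change muL F θ s (g v) = g (muL F θ s v)
    rw [h1, h1, map_neg]

theorem muR_center {s : SL(2, K)} (hs : s ∈ Subgroup.center SL(2, K)) (g : V ≃ₗ[F] V) :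
    muR F θ s * g = g * muR F θ s := by
  rcases center_pm (inv_mem hs) with h | h
  · have h1 : ∀ v, muR F θ s v = v := by
      intro v
      apply θ.injective
      rw [th_muR, h, mul_one]
    ext v
    change muR F θ s (g v) = g (muR F θ s v)
    rw [h1, h1]
  · have h1 : ∀ v, muR F θ s v = -v := by
      intro v
      apply θ.injective
      rw [th_muR, h, map_neg, mul_neg, mul_one]
    ext v
    change muR F θ s (g v) = g (muR F θ s v)
    rw [h1, h1, map_neg]

variable {Q : QuadraticForm F V} {lam : K → F} (hQ : ∀ v, Q v = lam (θ v).det)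

include hQ in
theorem muL_mem_O (s : SL(2, K)) : muL F θ s ∈ O Q := by
  rw [mem_O]
  intro v
  rw [hQ, hQ, th_muL, Matrix.det_mul, s.2, one_mul]

include hQ in
theorem muR_mem_O (s : SL(2, K)) : muR F θ s ∈ O Q := by
  rw [mem_O]
  intro v
  rw [hQ, hQ, th_muR, Matrix.det_mul, (s⁻¹).2, mul_one]

end phi

section toE

variable {F K V : Type} [Field F] [Field K] [AddCommGroup V] [Module F V] {Q : QuadraticForm F V}

theorem mem_E_of_perf [Fintype K] (hG : Good Q) (h4 : 3 < Fintype.card K) (μ : SL(2, K) →* (V ≃ₗ[F] V))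
    (hμ : ∀ s, μ s ∈ O Q) (s : SL(2, K)) : μ s ∈ E Q := by
  have h1 := Cfsg.Agent.TwoFusion.SLTwoFacts.commutator_eq_top h4
  rw [commutator_def] at h1
  have h2 : (⊤ : Subgroup SL(2, K)).map μ ≤ O Q := by
    rintro _ ⟨t, -, rfl⟩
    exact hμ t
  have h3 : (⊤ : Subgroup SL(2, K)).map μ ≤ E Q := by
    rw [← h1, Subgroup.map_commutator, ← hG.commutator_eq_E]
    exact Subgroup.commutator_mono h2 h2
  exact h3 ⟨s, trivial, rfl⟩

/-- homomorphism to `E Q` -/
def toE [Fintype K] (hG : Good Q) (h4 : 3 < Fintype.card K) (μ : SL(2, K) →* (V ≃ₗ[F] V))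
    (hμ : ∀ s, μ s ∈ O Q) : SL(2, K) →* ↥(E Q) :=
  μ.codRestrict (E Q) (mem_E_of_perf hG h4 μ hμ)

theorem toE_coe [Fintype K] (hG : Good Q) (h4 : 3 < Fintype.card K) (μ : SL(2, K) →* (V ≃ₗ[F] V))
    (hμ : ∀ s, μ s ∈ O Q) (s : SL(2, K)) : (toE hG h4 μ hμ s : V ≃ₗ[F] V) = μ s := rfl

theorem ker_toE [Fintype K] (hG : Good Q) (h4 : 3 < Fintype.card K) {μ : SL(2, K) →* (V ≃ₗ[F] V)}
    (hμ : ∀ s, μ s ∈ O Q) (hinj : Function.Injective μ)
    (hcen : ∀ s ∈ Subgroup.center SL(2, K), ∀ g : V ≃ₗ[F] V, μ s * g = g * μ s)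
    {G : Type} [Group G] {N : Subgroup G} {ρ : ↥(E Q) →* G} (hρ : Rep Q N ρ) :
    (ρ.comp (toE hG h4 μ hμ)).ker = Subgroup.center SL(2, K) := by
  ext s
  rw [MonoidHom.mem_ker, MonoidHom.comp_apply, ← MonoidHom.mem_ker, hρ.ker]
  constructor
  · intro h
    rw [Subgroup.mem_center_iff] at h ⊢
    intro t
    apply hinj
    have h1 := congrArg Subtype.val (h (toE hG h4 μ hμ t))
    rw [map_mul, map_mul]
    exact h1
  · intro h
    rw [Subgroup.mem_center_iff]
    intro t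
    apply Subtype.ext
    exact (hcen s h t.1).symm

theorem range_toE [Fintype K] (hG : Good Q) (h4 : 3 < Fintype.card K) {μ : SL(2, K) →* (V ≃ₗ[F] V)}
    (hμ : ∀ s, μ s ∈ O Q) {G : Type} [Group G] {N : Subgroup G} {ρ : ↥(E Q) →* G} (hρ : Rep Q N ρ) :
    (ρ.comp (toE hG h4 μ hμ)).range ≤ N := by
  rintro _ ⟨s, rfl⟩
  rw [← hρ.range]
  exact ⟨_, rfl⟩

/-- the action of a lift -/
theorem act_toE [Fintype K] (hG : Good Q) (h4 : 3 < Fintype.card K) {μ : SL(2, K) →* (V ≃ₗ[F] V)}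
    (hμ : ∀ s, μ s ∈ O Q) {G : Type} [Group G] {ρ : ↥(E Q) →* G} {x : G} {M : Gam Q} (hl : Lf ρ x M)
    {P : GL (Fin 2) K} (hM : ∀ s v, μ (cj P s) (M.1 v) = M.1 (μ s v)) :
    Act (ρ.comp (toE hG h4 μ hμ)) x P := by
  intro s
  rw [MonoidHom.comp_apply, MonoidHom.comp_apply, hl]
  congr 1
  apply Subtype.ext
  rw [coe_conjE, toE_coe, toE_coe]
  ext v
  obtain ⟨v, rfl⟩ := M.1.surjective v
  rw [conjLin_apply', hM]

end toE

end Cfsg.Agent.H31.RC
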